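import Cfsg.Agent.Lib.OL5.Grp2

/-!
# Two-generator 2-groups whose derived group is a four-group

`P = ⟨x, y⟩`, `x y x⁻¹ = y c`, `x c x⁻¹ = c d`, `P' = {1, c, d, c d}`, `d` central.
-/

set_option autoImplicit false

namespace Cfsg.Lib.G64

open Subgroup Cfsg.Lib.CY4 Cfsg.Lib.OL5

variable {P : Type*} [Group P] {x y c d g t z : P}

section Gen
variable (gen : zpowers x ⊔ zpowers y = ⊤)
include gen

theorem mem_of_gen {H : Subgroup P} (hx : x ∈ H) (hy : y ∈ H) (g : P) : g ∈ H :=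
  (sup_le (zpowers_le.2 hx) (zpowers_le.2 hy) : _ ≤ H) (gen ▸ mem_top g)

theorem cen_of_gen (hx : x * z = z * x) (hy : y * z = z * y) : z ∈ center P :=
  mem_center_iff.2 fun g => mem_centralizer_singleton_iff.1 (mem_of_gen gen
    (mem_centralizer_singleton_iff.2 hx) (mem_centralizer_singleton_iff.2 hy) g)

theorem comm_of_gen {N : Subgroup P} [N.Normal] (hx : g * x * g⁻¹ * x⁻¹ ∈ N)
    (hy : g * y * g⁻¹ * y⁻¹ ∈ N) (a : P) : g * a * g⁻¹ * a⁻¹ ∈ N :=
  g2_quot.2 (mem_centralizer_singleton_iff.1 (mem_of_gen gen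
    (H := (centralizer {(g : P ⧸ N)}).comap (QuotientGroup.mk' N))
    (mem_centralizer_singleton_iff.2 (g2_quot.1 hx).eq.symm)
    (mem_centralizer_singleton_iff.2 (g2_quot.1 hy).eq.symm) a)).symm

theorem der_mem {N : Subgroup P} [N.Normal] (h : x * y * x⁻¹ * y⁻¹ ∈ N) (a b : P) :
    a * b * a⁻¹ * b⁻¹ ∈ N := by
  have h1 := comm_of_gen gen (N := N) (g := x) (by simp) h a
  have h2 := comm_of_gen gen (N := N) (g := y) (g2_quot.2 (g2_quot.1 h).symm) (by simp) a
  exact comm_of_gen gen (g2_quot.2 (g2_quot.1 h1).symm) (g2_quot.2 (g2_quot.1 h2).symm) b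

theorem der_le {N : Subgroup P} [N.Normal] (h : x * y * x⁻¹ * y⁻¹ ∈ N) : commutator P ≤ N :=
  commutator_le.2 fun a _ b _ => der_mem gen h a b

theorem four {N : Subgroup P} [N.Normal] (h : x * y * x⁻¹ * y⁻¹ ∈ N) (hx : x * x ∈ N)
    (hy : y * y ∈ N) (g : P) : g ∈ N ∨ g * x ∈ N ∨ g * y ∈ N ∨ g * x * y ∈ N := by
  simp only [← QuotientGroup.eq_one_iff, QuotientGroup.mk_mul] at hx hy ⊢
  have e := (g2_quot.1 h).eq
  have hx' : ∀ a : P ⧸ N, (x : P ⧸ N) * (x * a) = a := fun a => by rw [← mul_assoc, hx, one_mul]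
  have hy' : ∀ a : P ⧸ N, (y : P ⧸ N) * (y * a) = a := fun a => by rw [← mul_assoc, hy, one_mul]
  have e' : ∀ a : P ⧸ N, (y : P ⧸ N) * (x * a) = x * (y * a) := fun a => by
    rw [← mul_assoc, ← e, mul_assoc]
  let H : Subgroup (P ⧸ N) :=
    { carrier := {a | a = 1 ∨ a = x ∨ a = y ∨ a = x * y}
      one_mem' := .inl rfl
      mul_mem' := by
        rintro a b (rfl | rfl | rfl | rfl) (rfl | rfl | rfl | rfl) <;>
          simp [mul_assoc, hx, hy, hx', hy', e', ← e]
      inv_mem' := by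
        rintro a (rfl | rfl | rfl | rfl) <;>
          simp [inv_eq_of_mul_eq_one_right hx, inv_eq_of_mul_eq_one_right hy, ← e] }
  rcases mem_of_gen gen (H := H.comap (QuotientGroup.mk' N)) (.inr (.inl rfl))
    (.inr (.inr (.inl rfl))) g with k | k | k | k <;>
  · rw [QuotientGroup.mk'_apply] at k
    simp [k, mul_assoc, hx, hy, hx', hy', e']

theorem exists_pair {C : Subgroup P} (h : ∀ a ∉ C, ∀ b ∉ C, a * b ∈ C) (n : C ≠ ⊤) :
    ∃ x y, zpowers x ⊔ zpowers y = ⊤ ∧ x ∉ C ∧ y ∈ C := by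
  by_cases hx : x ∈ C <;> by_cases hy : y ∈ C
  · exact (n ((eq_top_iff' C).2 (mem_of_gen gen hx hy))).elim
  · exact ⟨y, x, sup_comm (zpowers x) _ ▸ gen, hy, hx⟩
  · exact ⟨x, y, gen, hx, hy⟩
  · refine ⟨x, x * y, (eq_top_iff' _).2 (mem_of_gen gen (mem_sup_left (mem_zpowers x)) ?_), hx,
      h x hx y hy⟩
    exact (mul_mem_cancel_left (mem_sup_left (mem_zpowers x))).1 (mem_sup_right (mem_zpowers _))

end Gen

/-- `P = ⟨x, y⟩` has class three and derived group `{1, c, d, c d}`. -/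
structure K (x y c d : P) : Prop where
  gen : zpowers x ⊔ zpowers y = ⊤
  xy : x * y * x⁻¹ = y * c
  xc : x * c * x⁻¹ = c * d
  yc : y * c = c * y
  c2 : c * c = 1
  d2 : d * d = 1
  d1 : d ≠ 1
  dZ : d ∈ center P

namespace K

variable (h : K x y c d)
include h

theorem dg (g : P) : g * d = d * g := mem_center_iff.1 h.dZ g

theorem cj (g : P) : g * d * g⁻¹ = d := by rw [h.dg, mul_inv_cancel_right]

theorem xxc : x * x * c * (x * x)⁻¹ = c := by
  rw [show x * x * c * (x * x)⁻¹ = x * (x * c * x⁻¹) * x⁻¹ by group, h.xc, ← conj_mul, h.xc, h.cj,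
    mul_assoc, h.d2, mul_one]

theorem xxy : x * x * y * (x * x)⁻¹ = y * d := by
  rw [show x * x * y * (x * x)⁻¹ = x * (x * y * x⁻¹) * x⁻¹ by group, h.xy, ← conj_mul, h.xy, h.xc,
    mul_assoc, ← mul_assoc c, h.c2, one_mul]

theorem yy : y * y ∈ center P := cen_of_gen h.gen (by
  rw [← mul_inv_eq_iff_eq_mul, ← conj_mul, h.xy, mul_assoc, ← mul_assoc c, ← h.yc, mul_assoc,
    h.c2, mul_one]) (mul_assoc _ _ _).symm

theorem x4 : x * x * (x * x) ∈ center P := cen_of_gen h.gen (by group) (by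
  rw [eq_comm, ← mul_inv_eq_iff_eq_mul, show x * x * (x * x) * y * (x * x * (x * x))⁻¹ =
    x * x * (x * x * y * (x * x)⁻¹) * (x * x)⁻¹ by group, h.xxy, ← conj_mul, h.xxy, h.cj,
    mul_assoc, h.d2, mul_one])

theorem nc : x * c ≠ c * x := fun e => h.d1 (by
  have := h.xc
  rwa [e, mul_inv_cancel_right, left_eq_mul] at this)

theorem nxx : x * x * y ≠ y * (x * x) := fun e => h.d1 (by
  have := h.xxy
  rwa [e, mul_inv_cancel_right, left_eq_mul] at this)

theorem cZ : c ∉ center P := fun e => h.nc (mem_center_iff.1 e x)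

theorem cdZ : c * d ∉ center P := fun e => h.cZ ((mul_mem_cancel_right h.dZ).1 e)

theorem cmm : x * y * x⁻¹ * y⁻¹ = c := by rw [h.xy, h.yc, mul_inv_cancel_right]

theorem card [Finite P] : 16 * Nat.card (center P) ≤ Nat.card P := by
  have m : ∀ {a b : P}, a ∈ centralizer {b} ↔ a * b = b * a := mem_centralizer_singleton_iff
  have xx : x * x * c = c * (x * x) := mul_inv_eq_iff_eq_mul.1 h.xxc
  have s1 := g1_half (le_top : centralizer ({c} : Set P) ≤ ⊤) (mem_top x) fun e => h.nc (m.1 e)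
  have s2 := g1_half (inf_le_left : centralizer ({c} : Set P) ⊓ centralizer {x * x} ≤ _)
    (m.2 h.yc) fun e => h.nxx (m.1 e.2).symm
  have s3 := g1_half (inf_le_left : centralizer ({c} : Set P) ⊓ centralizer {x * x} ⊓
    centralizer {y} ≤ _) (g := x * x) ⟨m.2 xx, m.2 rfl⟩ fun e => h.nxx (m.1 e.2)
  have s4 := g1_half (N := center P) (H := centralizer ({c} : Set P) ⊓ centralizer {x * x} ⊓
    centralizer {y}) (le_inf (le_inf (center_le_centralizer _) (center_le_centralizer _))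
    (center_le_centralizer _)) (g := c) ⟨⟨m.2 rfl, m.2 xx.symm⟩, m.2 h.yc.symm⟩ h.cZ
  rw [card_top] at s1
  omega

theorem map {Γ : Type*} [Group Γ] {φ : P →* Γ} (hφ : Function.Surjective φ) (n : φ d ≠ 1) :
    K (φ x) (φ y) (φ c) (φ d) where
  gen := by rw [← φ.map_zpowers, ← φ.map_zpowers, ← Subgroup.map_sup, h.gen, map_top_of_surjective φ hφ]
  xy := by rw [← map_inv, ← map_mul, ← map_mul, h.xy, map_mul]
  xc := by rw [← map_inv, ← map_mul, ← map_mul, h.xc, map_mul]
  yc := by rw [← map_mul, h.yc, map_mul]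
  c2 := by rw [← map_mul, h.c2, map_one]
  d2 := by rw [← map_mul, h.d2, map_one]
  d1 := n
  dZ := mem_center_iff.2 fun g => by
    obtain ⟨g, rfl⟩ := hφ g
    rw [← map_mul, h.dg, map_mul]

/-- The derived group. -/
def N : Subgroup P where
  carrier := {g | g = 1 ∨ g = c ∨ g = d ∨ g = c * d}
  one_mem' := .inl rfl
  mul_mem' := by
    have e1 : ∀ a, c * (c * a) = a := fun a => by rw [← mul_assoc, h.c2, one_mul]
    have e2 : ∀ a, d * (c * a) = c * (d * a) := fun a => by rw [← mul_assoc, ← h.dg, mul_assoc]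
    rintro a b (e | e | e | e) (e' | e' | e' | e') <;> rw [e, e'] <;>
      simp [mul_assoc, h.c2, h.d2, e1, e2, ← h.dg c]
  inv_mem' := by
    rintro a (e | e | e | e) <;> rw [e] <;>
      simp [inv_eq_of_mul_eq_one_right h.c2, inv_eq_of_mul_eq_one_right h.d2, ← h.dg c]

theorem mem_N : g ∈ h.N ↔ g = 1 ∨ g = c ∨ g = d ∨ g = c * d := Iff.rfl

theorem conj_c (g : P) : g * c * g⁻¹ = c ∨ g * c * g⁻¹ = c * d := by
  let H : Subgroup P :=
    { carrier := {g | g * c * g⁻¹ = c ∨ g * c * g⁻¹ = c * d}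
      one_mem' := by simp
      mul_mem' := fun {a b} ha hb => by
        change _ ∨ _
        rw [show a * b * c * (a * b)⁻¹ = a * (b * c * b⁻¹) * a⁻¹ by group]
        rcases hb with e | e <;> rw [e]
        · exact ha
        · rw [← conj_mul, h.cj]
          exact ha.symm.imp (fun e => by rw [e, mul_assoc, h.d2, mul_one]) fun e => by rw [e]
      inv_mem' := fun {a} ha => ha.imp (fun e => by
        conv_lhs => rw [← e]
        group) fun e => by
          rw [← mul_left_inj d, mul_assoc c, h.d2, mul_one, inv_inv, mul_assoc, h.dg, ← mul_assoc,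
            mul_assoc a⁻¹, ← e]
          group }
  exact mem_of_gen h.gen (H := H) (.inr h.xc) (.inl (by rw [h.yc, mul_inv_cancel_right])) g

instance normal_N : h.N.Normal := ⟨by
  rintro a (rfl | rfl | rfl | rfl) g
  · simp
  · exact (h.conj_c g).elim (fun e => .inr (.inl e)) fun e => .inr (.inr (.inr e))
  · exact .inr (.inr (.inl (h.cj g)))
  · rw [← conj_mul, h.cj]
    exact (h.conj_c g).elim (fun e => .inr (.inr (.inr (by rw [e])))) fun e => .inr (.inl (by
      rw [e, mul_assoc, h.d2, mul_one]))⟩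

theorem der (a b : P) : a * b * a⁻¹ * b⁻¹ ∈ h.N :=
  der_mem h.gen (h.cmm ▸ .inr (.inl rfl)) a b

theorem N_comm (hg : g ∈ h.N) (e : t * c = c * t) : t * g = g * t := by
  rcases hg with rfl | rfl | rfl | rfl
  · simp
  · exact e
  · exact h.dg t
  · rw [← mul_assoc, e, mul_assoc, h.dg, mul_assoc]

end K

end Cfsg.Lib.G64
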