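import Cfsg.Agent.Lib.G64.Def
import Cfsg.Agent.Lib.FGS.Taussky

/-!
# Two-generator 2-groups of order at most 64 have a good central element
-/

set_option autoImplicit false

namespace Cfsg.Lib.G64

open Subgroup Cfsg.Lib.CY4 Cfsg.Lib.OL5 Cfsg.Lib.PGroup

universe u

variable {P : Type u} [Group P] [Finite P] {x y c d g z : P}

/-- Every image of `P` with kernel `⟨z⟩` is a group `K` of order 32. -/
def Gd (z : P) : Prop := z ∈ center P ∧
  ∀ (Γ : Type u) [Group Γ] (φ : P →* Γ), Function.Surjective φ → φ.ker = zpowers z →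
    Nat.card Γ ≤ 32 ∧ ∃ x y c d : Γ, K x y c d

omit [Finite P] in
theorem map_gen {Γ : Type*} [Group Γ] {φ : P →* Γ} (hφ : Function.Surjective φ)
    (gen : zpowers x ⊔ zpowers y = ⊤) : zpowers (φ x) ⊔ zpowers (φ y) = ⊤ := by
  rw [← φ.map_zpowers, ← φ.map_zpowers, ← Subgroup.map_sup, gen, map_top_of_surjective φ hφ]

theorem card_mul {Γ : Type*} [Group Γ] {φ : P →* Γ} (hφ : Function.Surjective φ)
    (k : φ.ker = zpowers z) : orderOf z * Nat.card Γ = Nat.card P := by
  rw [← Nat.card_zpowers, ← k, ← φ.ker.card_mul_index, index_ker, MonoidHom.range_eq_top.2 hφ,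
    card_top]

theorem good_meta (gen : zpowers x ⊔ zpowers y = ⊤) (hz : z ∈ center P)
    (h : x * y * x⁻¹ ∈ zpowers y ⊔ zpowers z) : Good z := ⟨hz, fun Γ _ φ hφ k => .inl (by
  have := Finite.of_surjective φ hφ
  refine isMetacyclic_iff_exists.2 ⟨φ y, φ x, gp_norm ?_, sup_comm (zpowers (φ x)) _ ▸ map_gen hφ gen⟩
  have := mem_map_of_mem φ h
  rwa [Subgroup.map_sup, ← k, (Subgroup.map_eq_bot_iff φ.ker).2 le_rfl, sup_bot_eq, φ.map_zpowers, map_mul,
    map_mul, map_inv] at this)⟩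

omit [Finite P] in
theorem normal_zpowers (hc : zpowers c = commutator P) (hg : g ∈ commutator P) :
    (zpowers g).Normal := ⟨by
  rintro _ ⟨j, rfl⟩ a
  rw [← hc] at hg
  obtain ⟨i, rfl⟩ := hg
  obtain ⟨k, e⟩ : a * c * a⁻¹ ∈ zpowers c :=
    hc ▸ (inferInstance : (commutator P).Normal).conj_mem c (hc ▸ mem_zpowers c) a
  refine ⟨k * j, ?_⟩
  simp only [← conj_zpow, ← show c ^ k = _ from e, ← zpow_mul]
  congr 1
  ring⟩

theorem index_le (hP : IsPGroup 2 P) (h64 : Nat.card P ≤ 64) (h : g ^ 8 ≠ 1) :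
    (zpowers g).index ≤ 4 := by
  obtain ⟨n, e⟩ := hP.exists_orderOf_eq_pow g
  have h1 : 4 ≤ n := by
    by_contra! k
    exact h (orderOf_dvd_iff_pow_eq_one.1 (e ▸ pow_dvd_pow 2 (show n ≤ 3 by omega)))
  have h2 := (zpowers g).card_mul_index
  have h3 := Nat.mul_le_mul_right (zpowers g).index (Nat.pow_le_pow_right two_pos h1)
  rw [Nat.card_zpowers, e] at h2
  omega

variable (hP : IsPGroup 2 P) (gen : zpowers x ⊔ zpowers y = ⊤)
include hP gen

theorem of_four (hc : zpowers c = commutator P) (o : orderOf c = 4) (n : c ∉ center P) :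
    ∃ z : P, Good z := by
  have m : ∀ {a : P}, a ∈ centralizer {c} ↔ a * c = c * a := mem_centralizer_singleton_iff
  have k : ∀ a ∉ centralizer {c}, a * c * a⁻¹ = c⁻¹ := fun a ha => by
    obtain ⟨i, e⟩ : a * c * a⁻¹ ∈ zpowers c :=
      hc ▸ (inferInstance : (commutator P).Normal).conj_mem c (hc ▸ mem_zpowers c) a
    replace e : c ^ (i % 4) = a * c * a⁻¹ := by
      rw [← show c ^ i = _ from e, ← zpow_mod_orderOf c i, o]
      rfl
    have c4 : c ^ (4 : ℤ) = 1 := orderOf_dvd_iff_zpow_eq_one.1 (by rw [o]; rfl)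
    have c2 : ¬ (c ^ (i % 4)) ^ (2 : ℤ) = 1 := by
      rw [e, conj_zpow, conj_eq_one_iff, ← orderOf_dvd_iff_zpow_eq_one, o]
      decide
    rw [← zpow_mul, ← orderOf_dvd_iff_zpow_eq_one, o] at c2
    rcases show i % 4 = 1 ∨ i % 4 = 3 by omega with k | k <;> rw [k] at e
    · exact (ha (m.2 (mul_inv_eq_iff_eq_mul.1 (e.symm.trans (zpow_one c))))).elim
    · rw [← e, eq_inv_iff_mul_eq_one, ← c4]
      group
  obtain ⟨x, y, gen, hx, hy⟩ := exists_pair gen (C := centralizer {c}) (fun a ha b hb => m.2 (by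
    rw [← mul_inv_eq_iff_eq_mul, show a * b * c * (a * b)⁻¹ = a * (b * c * b⁻¹) * a⁻¹ by group,
      k b hb, ← conj_inv, k a ha, inv_inv])) fun e => n (centralizer_eq_top_iff_subset.1 e rfl)
  obtain ⟨i, e⟩ : y⁻¹ * x * y⁻¹⁻¹ * x⁻¹ ∈ zpowers c := hc ▸ g1_comm_mem _ _
  replace e : x * y * x⁻¹ = y * c ^ i := by rw [show c ^ i = _ from e]; group
  have yc : Commute y (c ^ i) := Commute.zpow_right (m.1 hy) i
  refine ⟨y * y * c ^ i, good_meta gen (cen_of_gen gen ?_ ?_) ?_⟩
  · rw [← mul_inv_eq_iff_eq_mul, ← conj_mul, ← conj_mul, ← conj_zpow, k x hx, e, inv_zpow,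
      mul_assoc (y * c ^ i), mul_inv_cancel_right, mul_assoc, ← yc.eq, mul_assoc]
  · rw [mul_assoc (y * y), ← yc.eq, mul_assoc, mul_assoc]
  · rw [e, ← inv_mul_cancel_left y (y * c ^ i), ← mul_assoc y]
    exact mul_mem (mem_sup_left (inv_mem (mem_zpowers y))) (mem_sup_right (mem_zpowers _))

theorem of_eight (h64 : Nat.card P ≤ 64) (hc : zpowers c = commutator P) (o : orderOf c = 8) :
    ∃ z : P, Good z := by
  have sq : ∀ a : P, ∀ b ∈ commutator P, Commute (a * a) b := fun a b hb => by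
    obtain ⟨j, rfl⟩ : b ∈ zpowers c := hc ▸ hb
    obtain ⟨i, e⟩ : a * c * a⁻¹ ∈ zpowers c :=
      hc ▸ (inferInstance : (commutator P).Normal).conj_mem c (hc ▸ mem_zpowers c) a
    replace e : c ^ i = a * c * a⁻¹ := e
    have c4 : ¬ (c ^ i) ^ (4 : ℤ) = 1 := by
      rw [e, conj_zpow, conj_eq_one_iff, ← orderOf_dvd_iff_zpow_eq_one, o]
      decide
    rw [← zpow_mul, ← orderOf_dvd_iff_zpow_eq_one, o] at c4
    obtain ⟨k, rfl⟩ : ∃ k, i = 2 * k + 1 := ⟨i / 2, by omega⟩
    obtain ⟨l, hl⟩ := Int.even_mul_succ_self k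
    refine Commute.zpow_right (mul_inv_eq_iff_eq_mul.1 ?_) j
    rw [show a * a * c * (a * a)⁻¹ = a * (a * c * a⁻¹) * a⁻¹ by group, ← e, ← conj_zpow, ← e,
      ← zpow_mul, show (2 * k + 1) * (2 * k + 1) = 4 * (k * (k + 1)) + 1 by ring, hl, zpow_add_one,
      orderOf_dvd_iff_zpow_eq_one.1 (by rw [o]; exact ⟨l, by push_cast; ring⟩), one_mul]
  have c8 : Nat.card (commutator P) = 8 := by rw [← hc, Nat.card_zpowers, o]
  have f1 := sq_le_index_frattini hP (FGS.not_isCyclic_of_commutator_ne_bot (g1_ne_bot (by omega)))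
  have f2 := (frattini P).card_mul_index
  have f3 := Nat.mul_le_mul_left (Nat.card (frattini P)) f1
  have xy : Commute (x * x) (y * y) := by
    by_cases h1 : x * x ∈ commutator P
    · exact (sq y _ h1).symm
    by_cases h2 : y * y ∈ commutator P
    · exact sq x _ h2
    simpa only [inv_mul_cancel_left] using (Commute.refl (x * x)).inv_right.mul_right (sq x _ (g1_mul
      (commutator_le_frattini hP) (by omega) (pow_two x ▸ pow_mem_frattini hP x)
      (pow_two y ▸ pow_mem_frattini hP y) h1 h2))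
  by_cases h1 : ∃ g : P, g ^ 8 ≠ 1
  · obtain ⟨g, h1⟩ := h1
    exact exists_good hP (index_le hP h64 h1)
  push Not at h1
  have h2 : ∀ g : P, (g * g) ^ 4 = 1 := fun g => by rw [← pow_two, ← pow_mul, h1]
  have m := g1_comm_mem x⁻¹ y
  have h3 := h2 (x * y)
  rw [show x * y * (x * y) = x * x * (x⁻¹ * y * x⁻¹⁻¹ * y⁻¹) * (y * y) by group,
    (xy.mul_left (sq y _ m).symm).mul_pow, (sq x _ m).mul_pow, h2, h2, one_mul, mul_one] at h3
  have := normal_zpowers hc m
  have h4 := card_le_of_le (der_le (x := x⁻¹) (y := y) (by rwa [zpowers_inv]) (mem_zpowers _))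
  have := Nat.le_of_dvd four_pos (orderOf_dvd_of_pow_eq_one h3)
  rw [Nat.card_zpowers] at h4
  omega

theorem of_cyclic (h64 : Nat.card P ≤ 64) (h : IsCyclic (commutator P)) : ∃ z : P, Good z := by
  obtain ⟨c, hc⟩ := (commutator P).isCyclic_iff_exists_zpowers_eq_top.1 h
  by_cases n : c ∈ center P
  · refine ⟨c, good_meta gen n ?_⟩
    rw [← inv_mul_cancel_right (x * y * x⁻¹) y, hc]
    exact mul_mem (mem_sup_right (g1_comm_mem x y)) (mem_sup_left (mem_zpowers y))
  by_cases h8 : c ^ 8 = 1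
  swap
  · exact exists_good hP (index_le hP h64 h8)
  obtain ⟨k, h1, o⟩ := (Nat.dvd_prime_pow Nat.prime_two (m := 3)).1 (orderOf_dvd_of_pow_eq_one h8)
  interval_cases k
  · exact (n (orderOf_eq_one_iff.1 o ▸ one_mem _)).elim
  · exact (n (g1_central (N := commutator P) (by rw [← hc, Nat.card_zpowers, o]; rfl)
      (hc ▸ mem_zpowers c))).elim
  exacts [of_four hP gen hc o n, of_eight hP gen h64 hc o]

theorem exists_K (h4 : Nat.card (commutator P) = 4) (h2 : ∀ g ∈ commutator P, g * g = 1) :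
    ∃ x y c d : P, K x y c d := by
  obtain ⟨d, hd, dZ, o⟩ := exists_mem_center_orderOf_eq hP (N := commutator P) (g1_ne_bot (by omega))
  have d1 : d ≠ 1 := fun e => by simp [e] at o
  have c2 : Nat.card (zpowers d) = 2 := by rw [Nat.card_zpowers, o]
  have l := zpowers_le.2 hd
  have k0 : ∀ {x y : P}, zpowers x ⊔ zpowers y = ⊤ → ∀ z ∈ center P, z * z = 1 →
      x * y * x⁻¹ * y⁻¹ ∉ zpowers z := fun gen z hz e k => by
    have := g1_normal (zpowers_le.2 hz)
    have h5 := card_le_of_le (der_le gen k)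
    have := Nat.le_of_dvd two_pos (orderOf_dvd_of_pow_eq_one ((pow_two z).trans e))
    rw [Nat.card_zpowers] at h5
    omega
  have k1 : ∀ a ∈ commutator P, a ∉ zpowers d → ∀ b ∈ commutator P, b ∉ zpowers d →
      b = a ∨ b = a * d := fun a ha na b hb nb =>
    (g1_two c2 (mem_zpowers d) d1 (g1_mul l (by omega) (inv_mem ha) hb (mt inv_mem_iff.1 na) nb)).imp
      (fun e => (inv_mul_eq_one.1 e).symm) inv_mul_eq_iff_eq_mul.1
  have := g1_normal (zpowers_le.2 dZ)
  have k2 : ∀ a ∈ commutator P, a ∉ zpowers d → ∀ g, g * a ≠ a * g → g * a * g⁻¹ = a * d :=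
    fun a ha na g n => (k1 a ha na _ ((inferInstance : (commutator P).Normal).conj_mem a ha g)
      (mt (this.mem_comm · ) (by simpa using na))).resolve_left fun e => n (mul_inv_eq_iff_eq_mul.1 e)
  have hc := g1_comm_mem x y
  have nc := k0 gen d dZ (h2 d hd)
  have nZ : x * y * x⁻¹ * y⁻¹ ∉ center P := fun e => k0 gen _ e (h2 _ hc) (mem_zpowers _)
  generalize x * y * x⁻¹ * y⁻¹ = c at hc nc nZ
  have m : ∀ {a : P}, a ∈ centralizer {c} ↔ a * c = c * a := mem_centralizer_singleton_iff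
  obtain ⟨x, y, gen, hx, hy⟩ := exists_pair gen (C := centralizer {c}) (fun a ha b hb => m.2 (by
    rw [← mul_inv_eq_iff_eq_mul, show a * b * c * (a * b)⁻¹ = a * (b * c * b⁻¹) * a⁻¹ by group,
      k2 c hc nc b (mt m.2 hb), ← conj_mul, k2 c hc nc a (mt m.2 ha), mem_center_iff.1 dZ a,
      mul_inv_cancel_right, mul_assoc, h2 d hd, mul_one]))
    fun e => nZ (centralizer_eq_top_iff_subset.1 e rfl)
  have he := g1_comm_mem y⁻¹ x
  have ne := k0 (x := y⁻¹) (y := x) (by rwa [zpowers_inv, sup_comm]) d dZ (h2 d hd)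
  refine ⟨x, y, _, d, gen, by group, k2 _ he ne x fun e => hx (m.2 ?_), ?_, h2 _ he, h2 d hd, d1, dZ⟩
  · rcases k1 c hc nc _ he ne with k | k <;> rw [k] at e
    · exact e
    · rwa [mul_assoc c, ← mem_center_iff.1 dZ, ← mul_assoc, ← mul_assoc, mul_left_inj] at e
  · rcases k1 c hc nc _ he ne with k | k <;> rw [k]
    · exact m.1 hy
    · rw [← mul_assoc, m.1 hy, mul_assoc, mem_center_iff.1 dZ, mul_assoc]

omit hP gen [Finite P] in
theorem K.good (h : K x y c d) (hz : zpowers z = center P) : Good z :=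
  ⟨hz ▸ mem_zpowers z, fun Γ _ φ hφ k => .inr (by
    have k1 : ∀ {a}, φ a = 1 ↔ a ∈ center P := by rw [← hz, ← k]; exact Iff.rfl
    have d1 := k1.2 h.dZ
    have xc : φ x * φ c = φ c * φ x := by
      rw [← map_mul, mul_inv_eq_iff_eq_mul.1 h.xc, map_mul, map_mul, d1, mul_one]
    have yc : φ y * φ c = φ c * φ y := by rw [← map_mul, h.yc, map_mul]
    have xy : φ x * φ y = φ y * φ c * φ x := by
      rw [← map_mul, mul_inv_eq_iff_eq_mul.1 h.xy, map_mul, map_mul]
    have xxy : φ x * φ x * φ y = φ y * (φ x * φ x) := by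
      rw [← map_mul, ← map_mul, mul_inv_eq_iff_eq_mul.1 h.xxy, map_mul, map_mul, d1, mul_one]
    have x4 : φ x * φ x * (φ x * φ x) = 1 := by simpa only [map_mul] using k1.2 h.x4
    have yy : φ y * φ y = 1 := by simpa only [map_mul] using k1.2 h.yy
    have XS : φ x * (φ c * (φ x * φ x)) = φ c * (φ x * φ x) * φ x := by
      rw [← mul_assoc, xc]
      group
    refine ⟨φ x, φ c * (φ x * φ x), φ y, _, 0, orderOf_eq_prime_pow (fun e => h.nxx ?_) ?_, ?_,
      fun e => h.nc ?_, XS, ?_, yy, fun e => h.cZ (k1.1 ?_), .inr rfl, ?_, ?_⟩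
    · exact (mem_center_iff.1 (k1.1 (by simpa [pow_two] using e)) y).symm
    · rw [← x4, ← pow_two, ← pow_two, ← pow_mul]
      rfl
    · rw [mul_assoc, ← mul_assoc _ (φ c), mul_assoc (φ x), xc, ← mul_assoc (φ x), xc, mul_assoc,
        mul_assoc, ← mul_assoc (φ c), ← map_mul φ c, h.c2, map_one, one_mul, ← mul_assoc, x4]
    · obtain ⟨i, e⟩ := (mul_mem_cancel_right (mul_mem (mem_zpowers _) (mem_zpowers _))).1 e
      have := mem_center_iff.1 ((k1 (a := c * x ^ (-i))).1 (by
        rw [map_mul, map_zpow, ← show φ x ^ i = _ from e]; group)) x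
      rwa [mul_assoc c, ← (Commute.self_zpow x _).eq, ← mul_assoc, ← mul_assoc, mul_left_inj] at this
    · rw [← mul_assoc, yc, mul_assoc, ← xxy, mul_assoc (φ c)]
    · have : φ y ∈ centralizer {φ x} := (sup_le (zpowers_le.2 (mem_centralizer_singleton_iff.2 rfl))
        (zpowers_le.2 (mem_centralizer_singleton_iff.2 XS.symm)) : _ ≤ centralizer {φ x}) e
      rwa [mem_centralizer_singleton_iff, xy, mul_left_inj, left_eq_mul] at this
    · rw [mul_assoc, xy, ← mul_assoc, ← mul_assoc, yy, one_mul, ← mul_assoc, eq_comm,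
        ← mul_assoc, mul_left_inj, mul_assoc, ← xc, inv_mul_cancel_left]
    · exact top_le_iff.1 ((map_gen hφ h.gen).ge.trans (sup_le_sup_right le_sup_left _)))⟩

omit hP gen in
theorem K.gd (h : K x y c d) (h64 : Nat.card P ≤ 64) : ∃ z : P, Good z ∨ Gd z := by
  by_cases hc : IsCyclic (center P)
  · obtain ⟨z, hz⟩ := (center P).isCyclic_iff_exists_zpowers_eq_top.1 hc
    exact ⟨z, .inl (h.good hz)⟩
  obtain ⟨z, hz, n⟩ : ∃ z ∈ center P, z ∉ zpowers d := SetLike.not_le_iff_exists.1 fun e =>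
    hc ((center P).isCyclic_iff_exists_zpowers_eq_top.2 ⟨d, le_antisymm (zpowers_le.2 h.dZ) e⟩)
  have h1 := h.card
  have h2 : 1 < orderOf z := by
    have : orderOf z ≠ 1 := fun e => n (orderOf_eq_one_iff.1 e ▸ one_mem _)
    have := orderOf_pos z
    omega
  refine ⟨z, .inr ⟨hz, fun Γ _ φ hφ k => ⟨?_, _, _, _, _, h.map hφ fun e => hc ?_⟩⟩⟩
  · have := Nat.mul_le_mul_right (Nat.card Γ) h2
    have := card_mul hφ k
    omega
  · have h3 : d ∈ zpowers z := k ▸ e
    have h4 := g1_half (zpowers_le.2 h3) (mem_zpowers z) n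
    have h5 : Nat.card (zpowers d) = 2 := by
      rw [Nat.card_zpowers, orderOf_eq_prime ((pow_two d).trans h.d2) h.d1]
    exact (center P).isCyclic_iff_exists_zpowers_eq_top.2
      ⟨z, eq_of_le_of_card_ge (zpowers_le.2 hz) (by omega)⟩

theorem of_der_eight (h64 : Nat.card P = 64) (h8 : Nat.card (commutator P) = 8)
    (n : ¬ IsCyclic (commutator P)) : ∃ z : P, Gd z := by
  obtain ⟨z, hz, hZ, o, h⟩ : ∃ z ∈ commutator P, z ∈ center P ∧ orderOf z = 2 ∧
      ∀ g ∈ commutator P, g * g ∈ zpowers z := by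
    by_cases h : ∀ g ∈ commutator P, g * g = 1
    · obtain ⟨z, h1, h2, h3⟩ :=
        exists_mem_center_orderOf_eq hP (N := commutator P) (g1_ne_bot (by omega))
      exact ⟨z, h1, h2, h3, fun g hg => h g hg ▸ one_mem _⟩
    push Not at h
    obtain ⟨g, hg, g2⟩ := h
    have k : ∀ a ∈ commutator P, a * a * (a * a) = 1 := fun a ha => by
      obtain ⟨k, h1, o⟩ := (Nat.dvd_prime_pow Nat.prime_two (m := 3)).1
        (show _ ∣ 8 from h8 ▸ orderOf_dvd_natCard _ ha)
      have : k ≠ 3 := fun e => n ((commutator P).isCyclic_iff_exists_zpowers_eq_top.2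
        ⟨a, eq_of_le_of_card_ge (zpowers_le.2 ha) (by rw [Nat.card_zpowers, o, e, h8]; rfl)⟩)
      rw [← pow_two, ← pow_two, ← pow_mul, ← orderOf_dvd_iff_pow_eq_one, o]
      exact pow_dvd_pow 2 (show k ≤ 2 by omega)
    have k1 : ∀ a ∈ commutator P, a * a = 1 ∨ a * a = g * g := fun a ha =>
      gp_inv (g1_sq (zpowers_le.2 hg) (by
        have := g1_four hP g2
        rw [Nat.card_zpowers]
        omega) ha) (mul_mem (mem_zpowers g) (mem_zpowers g)) (k a ha) (k g hg) g2
    refine ⟨g * g, mul_mem hg hg, mem_center_iff.2 fun a => mul_inv_eq_iff_eq_mul.1 ?_,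
      orderOf_eq_prime ((pow_two _).trans (k g hg)) g2, fun a ha =>
      (k1 a ha).elim (· ▸ one_mem _) (· ▸ mem_zpowers _)⟩
    rw [← conj_mul]
    exact (k1 _ ((inferInstance : (commutator P).Normal).conj_mem g hg a)).resolve_left (by
      rwa [conj_mul, conj_eq_one_iff])
  refine ⟨z, hZ, fun Γ _ φ hφ k => ?_⟩
  have := Finite.of_surjective φ hφ
  have h1 := card_mul hφ k
  have h2 : (commutator P).map φ = commutator Γ := by
    rw [map_commutator_eq, MonoidHom.range_eq_top.2 hφ, commutator_def]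
  have h3 := (commutator Γ).card_mul_index
  have h4 := (commutator P).card_mul_index
  rw [← h2, index_map_eq _ hφ (k ▸ zpowers_le.2 hz), h2] at h3
  rw [o] at h1
  rw [h8] at h4
  refine ⟨by omega, exists_K (hP.of_surjective φ hφ) (map_gen hφ gen) ?_ fun g hg => ?_⟩
  · rw [show (commutator P).index = 8 by omega] at h3
    omega
  · rw [← h2] at hg
    obtain ⟨g, hg, rfl⟩ := hg
    rw [← map_mul, ← MonoidHom.mem_ker, k]
    exact h g hg

theorem cases (h64 : Nat.card P ≤ 64) : ∃ z : P, Good z ∨ Gd z := by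
  by_cases hc : IsCyclic (commutator P)
  · exact (of_cyclic hP gen h64 hc).imp fun _ => .inl
  by_cases h4 : (commutator P).index = 4
  · obtain ⟨a, h⟩ := FGS.exists_index_le_two_aux _ P le_rfl hP h4
    exact (exists_good hP (h.trans (by decide))).imp fun _ => .inl
  have h1 : commutator P ≠ ⊥ := fun e => hc (e ▸ inferInstance)
  have i4 := (sq_le_index_frattini hP (FGS.not_isCyclic_of_commutator_ne_bot h1)).trans
    (index_antitone (commutator_le_frattini hP))
  obtain ⟨m, hm⟩ := IsPGroup.iff_card.1 (hP.to_subgroup (commutator P))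
  obtain ⟨l, hl⟩ := hP.index (commutator P)
  have i8 : 8 ≤ (commutator P).index := by
    rw [hl] at i4 h4 ⊢
    rcases l with _ | _ | _ | l
    · omega
    · omega
    · omega
    · exact Nat.pow_le_pow_right (n := 2) (i := 3) (by decide) (by omega)
  have e := (commutator P).card_mul_index
  have s1 := Nat.mul_le_mul_left (Nat.card (commutator P)) i8
  rcases m with _ | _ | _ | m
  · exact (h1 (eq_bot_of_card_eq _ hm)).elim
  · exact (hc (isCyclic_of_prime_card (p := 2) hm)).elim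
  · obtain ⟨x, y, c, d, h⟩ := exists_K hP gen hm fun g hg => by_contra fun n => hc
      ((commutator P).isCyclic_iff_exists_zpowers_eq_top.2 ⟨g, eq_of_le_of_card_ge (zpowers_le.2 hg)
        (by rw [Nat.card_zpowers, hm]; exact g1_four hP n)⟩)
    exact h.gd h64
  · have : 8 ≤ Nat.card (commutator P) :=
      hm ▸ Nat.pow_le_pow_right (n := 2) (i := 3) (by decide) (by omega)
    exact (of_der_eight hP gen (by omega) (by omega) hc).imp fun _ => .inr

end Cfsg.Lib.G64
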