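import Cfsg.Agent.Lib.G64.Def

/-!
# The groups `K` of order 32: the second centre `Z₂ = Φ(P)` and `C = C_P(c)`
-/

set_option autoImplicit false

namespace Cfsg.Lib.G64

open Subgroup Cfsg.Lib.CY4 Cfsg.Lib.OL5

variable {P : Type*} [Group P] {x y c d g t z a b : P}

variable (P) in
/-- The second centre. -/
abbrev Z2 : Subgroup P := Subgroup.upperCentralSeries P 2

theorem mem_Z2 : t ∈ Z2 P ↔ ∀ a, t * a * t⁻¹ * a⁻¹ ∈ center P := by
  rw [← Subgroup.upperCentralSeries_one]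
  rfl

theorem cen_Z2 (h : z ∈ center P) : z ∈ Z2 P :=
  mem_Z2.2 fun a => by rw [← mem_center_iff.1 h a]; simp

theorem Z2_conj (h : t ∈ Z2 P) (a : P) : ∃ u ∈ center P, t * a * t⁻¹ = u * a :=
  ⟨_, mem_Z2.1 h a, (inv_mul_cancel_right _ _).symm⟩

theorem Z2_der (h : t ∈ Z2 P) (a b : P) :
    t * (a * b * a⁻¹ * b⁻¹) = a * b * a⁻¹ * b⁻¹ * t := by
  obtain ⟨u, hu, e⟩ := Z2_conj h a
  obtain ⟨v, hv, e'⟩ := Z2_conj h b
  rw [← mul_inv_eq_iff_eq_mul, show t * (a * b * a⁻¹ * b⁻¹) * t⁻¹ = t * a * t⁻¹ * (t * b * t⁻¹) *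
    (t * a * t⁻¹)⁻¹ * (t * b * t⁻¹)⁻¹ by group, e, e', ← mem_center_iff.1 hv b,
    show u * a * (b * v) * (u * a)⁻¹ * (b * v)⁻¹ = u * (a * (b * v) * a⁻¹) * u⁻¹ * (b * v)⁻¹ by group,
    ← mem_center_iff.1 hu, mul_inv_cancel_right, mul_assoc a, mul_assoc b,
    ← mem_center_iff.1 hv a⁻¹]
  group

namespace K

variable (h : K x y c d)
include h

theorem c_inv : c⁻¹ = c := inv_eq_of_mul_eq_one_right h.c2

theorem cZ2 : c ∈ Z2 P := mem_Z2.2 fun a => by
  rw [show c * a * c⁻¹ * a⁻¹ = c * (a * c * a⁻¹)⁻¹ by group]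
  rcases h.conj_c a with e | e <;> rw [e]
  · simp
  · rw [h.dg c]
    simpa using inv_mem h.dZ

theorem N_le : h.N ≤ Z2 P := by
  rintro a (rfl | rfl | rfl | rfl)
  exacts [one_mem _, h.cZ2, cen_Z2 h.dZ, mul_mem h.cZ2 (cen_Z2 h.dZ)]

theorem xxZ2 : x * x ∈ Z2 P := mem_Z2.2 (comm_of_gen h.gen (by simp [mul_assoc]) (by
  rw [h.xxy, h.dg, mul_inv_cancel_right]
  exact h.dZ))

theorem Z2_c (ht : t ∈ Z2 P) : t * c = c * t := h.cmm ▸ Z2_der ht x y

theorem mul_C (ha : a * c ≠ c * a) (hb : b * c ≠ c * b) : a * b * c = c * (a * b) := by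
  have k : ∀ {g}, g * c ≠ c * g → g * c * g⁻¹ = c * d := fun n =>
    (h.conj_c _).resolve_left fun e => n (mul_inv_eq_iff_eq_mul.1 e)
  rw [← mul_inv_eq_iff_eq_mul, show a * b * c * (a * b)⁻¹ = a * (b * c * b⁻¹) * a⁻¹ by group, k hb,
    ← conj_mul, k ha, h.cj, mul_assoc, h.d2, mul_one]

theorem mem_C : g * c = c * g ↔ g ∈ Z2 P ∨ g * y ∈ Z2 P := by
  have m : ∀ {a : P}, a ∈ centralizer {c} ↔ a * c = c * a := mem_centralizer_singleton_iff
  refine ⟨fun e => ?_, fun e => e.elim h.Z2_c fun e =>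
    m.1 ((mul_mem_cancel_right (m.2 h.yc)).1 (m.2 (h.Z2_c e)))⟩
  rcases four h.gen (N := Z2 P) (h.cmm ▸ h.cZ2) h.xxZ2 (cen_Z2 h.yy) g with k | k | k | k
  · exact .inl k
  · exact (h.nc (m.1 ((mul_mem_cancel_left (m.2 e)).1 (m.2 (h.Z2_c k))))).elim
  · exact .inr k
  · exact (h.nc (m.1 ((mul_mem_cancel_left (m.2 e)).1
      ((mul_mem_cancel_right (m.2 h.yc)).1 (m.2 (h.Z2_c k)))))).elim

theorem comm_C (ha : a * c = c * a) (hb : b * c = c * b) : a * b * a⁻¹ * b⁻¹ ∈ center P := by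
  have k : ∀ {t}, t ∈ Z2 P → ∀ g : P, Commute (t : P ⧸ center P) g := fun ht g =>
    g2_quot.1 (mem_Z2.1 ht g)
  have k1 : Commute (a : P ⧸ center P) y := (h.mem_C.1 ha).elim (k · y) fun e => by
    simpa using (k e y).mul_left (Commute.refl (y : P ⧸ center P)).inv_left
  exact g2_quot.2 ((h.mem_C.1 hb).elim (fun e => (k e a).symm) fun e => by
    simpa using (k e a).symm.mul_right k1.inv_right)

theorem C_of_comm (e : g * y * g⁻¹ * y⁻¹ ∈ center P) : g * c = c * g := by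
  have k : ∀ {t}, t ∈ Z2 P → Commute (t : P ⧸ center P) y := fun ht => g2_quot.1 (mem_Z2.1 ht y)
  have n : ¬ Commute (x : P ⧸ center P) y := fun e => h.cZ (h.cmm ▸ g2_quot.2 e)
  have e' := (g2_quot.1 e).inv_left
  rcases four h.gen (N := Z2 P) (h.cmm ▸ h.cZ2) h.xxZ2 (cen_Z2 h.yy) g with k1 | k1 | k1 | k1
  · exact h.mem_C.2 (.inl k1)
  · exact (n (by simpa using e'.mul_left (k k1))).elim
  · exact h.mem_C.2 (.inr k1)
  · exact (n (by
      simpa [mul_assoc] using (e'.mul_left (k k1)).mul_left (Commute.refl _).inv_left)).elim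

theorem N_cases (hg : g ∈ h.N) (n : g ∉ center P) : g = c ∨ g = c * d := by
  rcases hg with rfl | e | rfl | e
  exacts [(n (one_mem _)).elim, .inl e, (n h.dZ).elim, .inr e]

theorem C_of_sq (e : g * g ∈ h.N) : g * c = c * g := by_contra fun n => h.d1 (by
  have k : g * c * g⁻¹ = c * d := (h.conj_c _).resolve_left fun e => n (mul_inv_eq_iff_eq_mul.1 e)
  have k1 : g * (g * y * g⁻¹) * g⁻¹ = y := by
    rw [show g * (g * y * g⁻¹) * g⁻¹ = g * g * y * (g * g)⁻¹ by group, ← h.N_comm e h.yc,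
      mul_inv_cancel_right]
  rcases h.N_cases (h.der g y) (mt h.C_of_comm n) with k2 | k2 <;>
    rw [mul_inv_eq_iff_eq_mul] at k2
  · rwa [k2, ← conj_mul, k, k2, h.dg c, ← mul_assoc, mul_assoc d, h.c2, mul_one,
      mul_eq_right] at k1
  · rwa [k2, ← conj_mul, ← conj_mul, k, k2, h.cj, mul_assoc c, h.d2, mul_one, ← mul_assoc,
      ← mul_assoc, h.c2, one_mul, mul_eq_right] at k1)

theorem mul_Z2 (ha : a * c = c * a) (hb : b * c = c * b) (na : a ∉ Z2 P) (nb : b ∉ Z2 P) :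
    a * b ∈ Z2 P := by
  have k := mul_mem (mul_mem ((h.mem_C.1 ha).resolve_left na) ((inferInstance : (Z2 P).Normal).conj_mem
    _ ((h.mem_C.1 hb).resolve_left nb) y⁻¹)) (inv_mem (cen_Z2 h.yy))
  convert k using 1
  group

variable [Finite P] (h32 : Nat.card P ≤ 32)
include h32

theorem cen_iff : z ∈ center P ↔ z = 1 ∨ z = d := by
  refine ⟨g1_two ?_ h.dZ h.d1, fun e => e.elim (· ▸ one_mem _) (· ▸ h.dZ)⟩
  have := h.card
  have := (one_lt_card_iff_ne_bot (center P)).2 fun e => h.d1 (mem_bot.1 (e ▸ h.dZ))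
  omega

theorem cen_N (hz : z ∈ center P) : z ∈ h.N :=
  ((h.cen_iff h32).1 hz).elim .inl fun e => .inr (.inr (.inl e))

theorem Z2_cases (ht : t ∈ Z2 P) (a : P) : t * a = a * t ∨ t * a = d * a * t :=
  ((h.cen_iff h32).1 (mem_Z2.1 ht a)).imp (fun e => by
    rwa [mul_inv_eq_one, mul_inv_eq_iff_eq_mul] at e) fun e => by
      rwa [mul_inv_eq_iff_eq_mul, mul_inv_eq_iff_eq_mul] at e

theorem Z2_sq (ht : t ∈ Z2 P) (a : P) : t * (a * a) = a * a * t := by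
  rcases h.Z2_cases h32 ht a with e | e
  · rw [← mul_assoc, e, mul_assoc, e, mul_assoc]
  · rw [← mul_assoc, e, mul_assoc, e, show d * a * (d * a * t) = d * (a * d) * a * t by group,
      h.dg a, ← mul_assoc d, h.d2, one_mul]

theorem sq_Z2 (ht : t ∈ Z2 P) : t * t ∈ center P := mem_center_iff.2 fun a => by
  rcases h.Z2_cases h32 ht a with e | e
  · rw [mul_assoc, e, ← mul_assoc t, e, mul_assoc]
  · rw [mul_assoc, e, ← mul_assoc t, ← mul_assoc t, h.dg t, mul_assoc d t, e, ← mul_assoc,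
      ← mul_assoc, ← mul_assoc, h.d2, one_mul, mul_assoc]

theorem sq_C (e : g * c = c * g) : g * g ∈ center P := by
  refine (h.mem_C.1 e).elim (h.sq_Z2 h32) fun k => ?_
  have := mul_mem (mul_mem (h.sq_Z2 h32 k) (mem_Z2.1 (inv_mem k) y⁻¹)) (inv_mem h.yy)
  convert this using 1
  group

theorem Z2_y (ht : t ∈ Z2 P) (e : t * y = y * t) : t ∈ h.N := by
  rcases h.Z2_cases h32 ht x with k | k
  · exact h.cen_N h32 (cen_of_gen h.gen k.symm e.symm)
  refine (mul_mem_cancel_right (show c ∈ h.N from .inr (.inl rfl))).1 (h.cen_N h32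
    (cen_of_gen h.gen ?_ (by rw [← mul_assoc, ← e, mul_assoc, h.yc, mul_assoc])))
  have k1 : c * x = d * (x * c) := by
    rw [mul_inv_eq_iff_eq_mul.1 h.xc, h.dg, ← mul_assoc, ← mul_assoc, h.d2, one_mul]
  rw [mul_assoc t, k1, ← mul_assoc t, h.dg, mul_assoc d, ← mul_assoc t, k,
    show d * (d * x * t * c) = d * d * (x * (t * c)) by group, h.d2, one_mul]

theorem Z2_le {U : Subgroup P} (h1 : h.N ≤ U) (h2 : x * x ∈ U) : Z2 P ≤ U := fun t ht => by
  rcases h.Z2_cases h32 ht y with k | k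
  · exact h1 (h.Z2_y h32 ht k)
  refine (mul_mem_cancel_right h2).1 (h1 (h.Z2_y h32 (mul_mem ht h.xxZ2) ?_))
  rw [mul_assoc t, mul_inv_eq_iff_eq_mul.1 h.xxy, ← mul_assoc t, ← mul_assoc t, k, h.dg,
    show d * (d * y * t) * (x * x) = d * d * (y * (t * (x * x))) by group, h.d2, one_mul]

theorem exists_out (ht : t ∈ Z2 P) (n : t ∉ h.N) : ∃ g, g * c ≠ c * g ∧ g * t = t * g := by
  have k := (h.Z2_cases h32 ht y).resolve_left fun e => n (h.Z2_y h32 ht e)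
  rcases h.Z2_cases h32 ht x with e | e
  · exact ⟨x, h.nc, e.symm⟩
  refine ⟨x * y, fun e => h.nc (mul_right_cancel (b := y) ?_), ?_⟩
  · rw [mul_assoc, ← h.yc, ← mul_assoc, e, mul_assoc]
  · rw [← mul_assoc, e, mul_assoc _ t, k, ← h.dg x, mul_assoc x d, ← mul_assoc d, ← mul_assoc d,
      h.d2, one_mul, mul_assoc]

theorem nxx' (ht : t * c = c * t) (n : t ∉ Z2 P) : x * x * t ≠ t * (x * x) := fun e => h.nxx (by
  have k := h.Z2_sq h32 ((h.mem_C.1 ht).resolve_left n) x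
  rwa [mul_assoc, ← mul_assoc (x * x), e, mul_assoc, mul_right_inj, eq_comm] at k)

theorem conj_xx (ht : t * c = c * t) (n : t ∉ Z2 P) : x * x * t * (x * x)⁻¹ = d * t :=
  mul_inv_eq_iff_eq_mul.2 ((h.Z2_cases h32 h.xxZ2 t).resolve_left (h.nxx' h32 ht n))

omit [Finite P] h32 in
theorem conj_x (ht : t * c = c * t) (n : t ∉ Z2 P) :
    x * t * x⁻¹ = c * t ∨ x * t * x⁻¹ = c * d * t := by
  refine (h.N_cases (h.der x t) fun e => h.cZ (h.cmm ▸ g2_quot.2 ?_)).imp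
    mul_inv_eq_iff_eq_mul.1 mul_inv_eq_iff_eq_mul.1
  simpa using (g2_quot.1 e).inv_right.mul_right
    (g2_quot.1 (mem_Z2.1 ((h.mem_C.1 ht).resolve_left n) x)).symm

end K

end Cfsg.Lib.G64
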